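import Mathlib
import Cfsg.Agent.Lib.Sect.Basic
import Cfsg.Agent.Lib.PGroup.Omega
import Cfsg.Agent.Lib.ExtraTwo.Basic
import Cfsg.Prelude.Def_OddOrderLocal

/-! # A 2-group of sectional rank at most two is metacyclic (Blackburn) -/

set_option autoImplicit false

namespace CfsgLib.Sect

open Subgroup Cfsg CfsgLib.PGroup
open scoped commutatorElement

universe u

variable {G : Type u} [Group G]

theorem sq_eq_one_of_odd (hG : IsPGroup 2 G) {d : G} {k : ℤ} (hk : Odd k) (h : d ^ k * d ^ k = 1) :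
    d * d = 1 ∧ d ^ k = d := by
  obtain ⟨n, hn⟩ := hG (d * d)
  have h1 : (d * d) ^ k = 1 := by rw [(Commute.refl d).mul_zpow, h]
  have h2 : orderOf (d * d) = 1 := Nat.eq_one_of_dvd_coprimes
    (Nat.Coprime.pow_left n (Nat.coprime_two_left.2 (Int.natAbs_odd.2 hk))) (orderOf_dvd_of_pow_eq_one hn)
    (Int.natCast_dvd.1 (orderOf_dvd_iff_zpow_eq_one.2 h1))
  rw [orderOf_eq_one_iff] at h2
  obtain ⟨m, rfl⟩ := hk
  exact ⟨h2, by rw [zpow_add, zpow_mul, zpow_two, h2, one_zpow, one_mul, zpow_one]⟩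

theorem normal_of_comm {N : Subgroup G} (h : ∀ a b : G, a * b * a⁻¹ * b⁻¹ ∈ N) : N.Normal :=
  ⟨fun x hx g => by simpa using mul_mem (h g x) hx⟩

theorem normal_zpowers {c : G} (hc : ∀ g, g * c = c * g) : (zpowers c).Normal := ⟨fun y hy g => by
  obtain ⟨i, rfl⟩ := hy
  show g * c ^ i * g⁻¹ ∈ _
  rw [(Commute.zpow_right (hc g) i).eq, mul_inv_cancel_right]
  exact ⟨i, rfl⟩⟩

/-- derived subgroup of order two -/
theorem meta_two [Finite G] (hG : IsPGroup 2 G) (hr : SR 4 (⊤ : Subgroup G)) {c : G} (hc : ∀ g, g * c = c * g)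
    (h1 : c ≠ 1) (h2 : c * c = 1) (hd : ∀ a b : G, a * b * a⁻¹ * b⁻¹ = 1 ∨ a * b * a⁻¹ * b⁻¹ = c)
    (hna : ∃ a b : G, a * b ≠ b * a) : ∃ a b : G, (zpowers a).Normal ∧ zpowers a ⊔ zpowers b = ⊤ := by
  obtain ⟨x, hx, hm⟩ := Set.exists_max_image {x : G | c ∈ zpowers x} orderOf (Set.toFinite _) ⟨c, mem_zpowers c⟩
  by_cases h3 : x ∈ Sq (⊤ : Subgroup G)
  swap
  · obtain ⟨y, -, e⟩ := exists_gen_two (hG.to_subgroup ⊤) (hr.di_le le_rfl) (mem_top x) h3
    refine ⟨x, y, normal_of_comm fun a b => ?_, e⟩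
    rcases hd a b with e | e <;> rw [e]
    exacts [one_mem _, hx]
  exfalso
  have sqm : ∀ g h : G, g * g * (h * h) = g * h * (g * h) ∨ g * g * (h * h) = g * h * (g * h) * c := fun g h => by
    rcases hd g h with e | e
    · left
      calc _ = g * (g * h * g⁻¹ * h⁻¹) * (h * g * h) := by group
        _ = _ := by rw [e]; group
    · right
      calc _ = g * (g * h * g⁻¹ * h⁻¹) * (h * g * h) := by group
        _ = _ := by rw [e, mul_assoc, ← hc]; group
  let T : Subgroup G :=
    { carrier := {y | ∃ g, y = g * g ∨ y = g * g * c}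
      one_mem' := ⟨1, Or.inl (mul_one _).symm⟩
      mul_mem' := by
        rintro _ _ ⟨g, rfl | rfl⟩ ⟨h, rfl | rfl⟩ <;> refine ⟨g * h, ?_⟩
        · exact sqm g h
        · rcases sqm g h with e | e <;> rw [← mul_assoc, e]
          exacts [Or.inr rfl, Or.inl (by rw [mul_assoc, h2, mul_one])]
        · rcases sqm g h with e | e <;> rw [mul_assoc, ← hc, ← mul_assoc, e]
          exacts [Or.inr rfl, Or.inl (by rw [mul_assoc, h2, mul_one])]
        · rw [mul_assoc, ← mul_assoc c, ← hc, mul_assoc (h * h), h2, mul_one]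
          exact sqm g h
      inv_mem' := by
        rintro _ ⟨g, rfl | rfl⟩
        · exact ⟨g⁻¹, Or.inl (mul_inv_rev _ _)⟩
        · exact ⟨g⁻¹, Or.inr (by rw [mul_inv_rev, inv_eq_of_mul_eq_one_right h2, hc, mul_inv_rev])⟩ }
  have nsq : ∀ g, x ≠ g * g := fun g e => by
    have h4 := hm g (zpowers_le.2 (e ▸ mul_mem (mem_zpowers g) (mem_zpowers g)) hx)
    obtain ⟨n, hn⟩ := (IsPGroup.iff_orderOf.1 hG) g
    rcases n with _ | n
    · rw [pow_zero, orderOf_eq_one_iff] at hn
      rw [e, hn, mul_one] at hx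
      exact h1 (by simpa using hx)
    · rw [e, ← pow_two, orderOf_pow_of_dvd two_ne_zero (hn ▸ dvd_pow_self 2 n.succ_ne_zero)] at h4
      have := orderOf_pos g
      omega
  obtain ⟨g, e⟩ := (Sq_le_iff (K := T)).2 (fun g _ => ⟨g, Or.inl rfl⟩) h3
  replace e := e.resolve_left (nsq g)
  obtain ⟨k, hk⟩ := hx
  simp only at hk
  rcases Int.even_or_odd k with ⟨m, rfl⟩ | hk'
  · have h4 : Commute g x := e ▸ ((Commute.refl g).mul_right (Commute.refl g)).mul_right (hc g)
    refine nsq (g * x ^ m) ?_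
    rw [mul_assoc, ← mul_assoc (x ^ m), ← (h4.zpow_right m).eq, mul_assoc, ← zpow_add, hk, ← mul_assoc, ← e]
  have h4 : x = c := by rw [← hk, (sq_eq_one_of_odd hG hk' (hk.symm ▸ h2)).2]
  subst h4
  let X : Subgroup G :=
    { carrier := {y | y * y = 1}
      one_mem' := mul_one _
      mul_mem' := by
        intro a b (ha : a * a = 1) (hb : b * b = 1)
        rcases sqm a b with e | e <;> rw [ha, hb, mul_one] at e
        · exact e.symm
        · exact absurd ((eq_inv_of_mul_eq_one_left e.symm).trans (inv_eq_of_mul_eq_one_right h2)).symm (nsq _)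
      inv_mem' := by
        intro a (ha : a * a = 1)
        show a⁻¹ * a⁻¹ = 1
        rw [← mul_inv_rev, ha, inv_one] }
  have := normal_zpowers hc
  have h5 := index_le ⊤ X (fun g => QuotientGroup.mk' (zpowers x) (g * g))
    ((Sq ⊤).map (QuotientGroup.mk' (zpowers x)) : Subgroup _) (fun a ha => mem_map_of_mem _ (sq_mem ha))
    fun a _ b _ e => by
      have e1 : (a * a)⁻¹ * (b * b) ∈ zpowers x := QuotientGroup.eq.1 e
      have e2 : a⁻¹ * b * (a⁻¹ * b) ∈ zpowers x := by
        rw [mul_inv_rev] at e1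
        rcases sqm a⁻¹ b with e | e <;> rw [e] at e1
        exacts [e1, (mul_mem_cancel_right (mem_zpowers x)).1 e1]
      rcases (ExtraTwo.mem_zpowers_iff_of_mul_self h2).1 e2 with e | e
      exacts [e, absurd e.symm (nsq _)]
  obtain ⟨a, b, hab⟩ := hna
  have h6 := four_le_di_of_ne (hG.to_subgroup ⊤) (mem_top a) (mem_top b) hab
  have h7 := hr.card_le (A := X) le_top fun a ha => ha
  have h8 := card_eq_relIndex' (le_top (a := X))
  have h9 := card_eq_relIndex' (Sq_le (⊤ : Subgroup G))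
  have h10 := card_eq_relIndex' (zpowers_le.2 h3)
  rw [Nat.card_zpowers, ExtraTwo.orderOf_eq_two h1 h2] at h10
  rw [SetLike.coe_sort_coe, ← relIndex_ker, QuotientGroup.ker_mk'] at h5
  have h11 := Nat.mul_le_mul h7 h5
  have h12 := Nat.mul_le_mul_left (Nat.card (Sq (⊤ : Subgroup G))) h6
  have := relIndex_ne (zpowers x) (Sq (⊤ : Subgroup G))
  unfold di at h12
  omega

theorem meta_aux (n : ℕ) : ∀ {G : Type u} [Group G] [Finite G], Nat.card G ≤ n → IsPGroup 2 G →
    SR 4 (⊤ : Subgroup G) → ∃ a b : G, (zpowers a).Normal ∧ zpowers a ⊔ zpowers b = ⊤ := by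
  induction n with
  | zero => exact fun h => absurd h (not_le.2 Nat.card_pos)
  | succ n ih =>
    intro G _ _ hn hG hr
    by_cases hna : ∀ a b : G, a * b = b * a
    · by_cases h0 : (⊤ : Subgroup G) = ⊥
      · exact ⟨1, 1, by simpa using normal_bot, by simpa using h0.symm⟩
      obtain ⟨x, hx, h1⟩ := exists_notMem_Sq (hG.to_subgroup ⊤) h0
      obtain ⟨y, -, e⟩ := exists_gen_two (hG.to_subgroup ⊤) (hr.di_le le_rfl) hx h1
      exact ⟨x, y, normal_of_comm fun a b => by rw [hna a b]; simp, e⟩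
    push Not at hna
    obtain ⟨c, hc, hz, ho⟩ := exists_mem_center_orderOf_eq hG (commutator G) fun e => by
      obtain ⟨a, b, h⟩ := hna
      exact h (commutatorElement_eq_one_iff_mul_comm.1 (mem_bot.1 (e ▸ commutator_mem_commutator
        (mem_top a) (mem_top b) : ⁅a, b⁆ ∈ (⊥ : Subgroup G))))
    have h1 := ExtraTwo.ne_one_of_orderOf ho
    have h2 := ExtraTwo.mul_self_of_orderOf ho
    have hz' := mem_center_iff.1 hz
    have : (zpowers c).Normal := normal_zpowers hz'
    obtain ⟨u, b, hu, e⟩ := ih (G := G ⧸ zpowers c) (by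
      have := card_eq_card_quotient_mul_card_subgroup (zpowers c)
      rw [Nat.card_zpowers, ho] at this
      have := Nat.card_pos (α := G ⧸ zpowers c)
      omega) (hG.to_quotient _) (hr.of_surjective (QuotientGroup.mk'_surjective _))
    obtain ⟨u, rfl⟩ := QuotientGroup.mk'_surjective _ u
    obtain ⟨b, rfl⟩ := QuotientGroup.mk'_surjective _ b
    have e1 : zpowers u ⊔ zpowers b ⊔ zpowers c = ⊤ := by
      rw [← comap_top (QuotientGroup.mk' (zpowers c)), ← e, ← MonoidHom.map_zpowers, ← MonoidHom.map_zpowers,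
        ← Subgroup.map_sup, comap_map_eq, QuotientGroup.ker_mk']
    have e2 : (zpowers u ⊔ zpowers c).Normal := by
      have := hu.comap (QuotientGroup.mk' (zpowers c))
      rwa [← MonoidHom.map_zpowers, comap_map_eq, QuotientGroup.ker_mk'] at this
    by_cases h3 : c ∈ zpowers u
    · rw [sup_of_le_left (zpowers_le.2 h3)] at e2
      rw [sup_right_comm, sup_of_le_left (zpowers_le.2 h3)] at e1
      exact ⟨u, b, e2, e1⟩
    obtain ⟨_, ⟨r, rfl⟩, y, hy, e3⟩ := mem_sup_of_normal_right.1 (e2.conj_mem u (mem_sup_left (mem_zpowers u)) b)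
    simp only at e3
    have hy1 : ∀ g, Commute g y := fun g => by
      obtain ⟨i, rfl⟩ := hy
      exact Commute.zpow_right (hz' g) i
    have hy2 : y * y = 1 := by
      rcases (ExtraTwo.mem_zpowers_iff_of_mul_self h2).1 hy with rfl | rfl
      exacts [mul_one _, h2]
    obtain ⟨d, hd⟩ : ∃ d, d = u ^ (r - 1) * y := ⟨_, rfl⟩
    have d1 : b * u * b⁻¹ * u⁻¹ = d := by rw [← e3, hd, mul_assoc, ← (hy1 _).eq]; group
    have d2 : b * d * b⁻¹ = d ^ r := by
      have : b * d * b⁻¹ = (b * u * b⁻¹) ^ (r - 1) * y := by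
        rw [conj_zpow, hd, mul_assoc, mul_assoc, ← (hy1 b⁻¹).eq]; group
      rw [this, ← e3, hd, (hy1 _).mul_zpow, (hy1 _).mul_zpow, ← zpow_mul, ← zpow_mul, mul_comm r, mul_assoc,
        ← zpow_add_one, sub_add_cancel]
    have d3 : (zpowers d).Normal := by
      rw [← normalizer_eq_top_iff, eq_top_iff, ← e1]
      have k : ∀ g : G, g * d * g⁻¹ ∈ zpowers d → zpowers g ≤ normalizer (zpowers d : Set G) := fun g hg =>
        zpowers_le.2 (mem_normalizer_fintype (by
          rintro _ ⟨i, rfl⟩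
          show g * d ^ i * g⁻¹ ∈ zpowers d
          rw [← conj_zpow]; exact zpow_mem hg i))
      refine sup_le (sup_le (k u ?_) (k b ⟨r, d2.symm⟩)) (k c ?_)
      · rw [show u * d * u⁻¹ = d by rw [hd, mul_assoc, mul_assoc, ← (hy1 _).eq]; group]
        exact mem_zpowers d
      · rw [← hz' d, mul_inv_cancel_right]
        exact mem_zpowers d
    have d4 : commutator G ≤ zpowers d := by
      refine commutator_le_of_cyclic_quotient (C := zpowers u ⊔ zpowers c) ?_ ?_ ?_
      · exact zpowers_le.2 (hd ▸ mul_mem_sup (zpow_mem (mem_zpowers u) _) hy)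
      · have k : ∀ g : G, ⁅u, g⁆ ∈ zpowers d := fun g => by
          let Y := (centralizer {QuotientGroup.mk' (zpowers d) u}).comap (QuotientGroup.mk' (zpowers d))
          have mY : ∀ g, g ∈ Y ↔ ⁅u, g⁆ ∈ zpowers d := fun g => by
            rw [mem_comap, mem_centralizer_singleton_iff, ← QuotientGroup.eq_one_iff, eq_comm,
              ← commutatorElement_eq_one_iff_mul_comm, ← map_commutatorElement]
            rfl
          refine (mY g).1 ((?_ : ⊤ ≤ Y) (mem_top g))
          rw [← e1]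
          refine sup_le (sup_le (zpowers_le.2 ((mY _).2 (by simp))) (zpowers_le.2 ((mY _).2 ?_)))
            (zpowers_le.2 ((mY _).2 ?_))
          · rw [← inv_mem_iff, commutatorElement_inv, commutatorElement_def, d1]
            exact mem_zpowers d
          · rw [commutatorElement_eq_one_iff_mul_comm.2 (hz' u)]
            exact one_mem _
        intro x hx g
        obtain ⟨_, ⟨i, rfl⟩, _, ⟨j, rfl⟩, rfl⟩ := mem_sup_of_normal_right.1 hx
        let Y := (center (G ⧸ zpowers d)).comap (QuotientGroup.mk' (zpowers d))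
        have mY : ∀ x, x ∈ Y ↔ ∀ g, ⁅x, g⁆ ∈ zpowers d := fun x => by
          rw [mem_comap, mem_center_iff, (QuotientGroup.mk'_surjective _).forall]
          refine forall_congr' fun g => ?_
          rw [← QuotientGroup.eq_one_iff, eq_comm, ← commutatorElement_eq_one_iff_mul_comm,
            ← map_commutatorElement]
          rfl
        refine (mY _).1 (mul_mem (zpow_mem ((mY _).2 k) i) (zpow_mem ((mY _).2 fun g => ?_) j)) g
        rw [commutatorElement_eq_one_iff_mul_comm.2 (hz' g).symm]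
        exact one_mem _
      · refine ⟨QuotientGroup.mk' _ b, fun q => ?_⟩
        have := map_top_of_surjective _ (QuotientGroup.mk'_surjective (zpowers u ⊔ zpowers c))
        rw [← e1, sup_right_comm, Subgroup.map_sup, (Subgroup.map_eq_bot_iff _).2 (QuotientGroup.ker_mk' _).ge, bot_sup_eq,
          MonoidHom.map_zpowers] at this
        exact (this.ge (mem_top q) : q ∈ zpowers _)
    obtain ⟨k, hk⟩ := d4 hc
    simp only at hk
    rcases Int.even_or_odd k with ⟨m, rfl⟩ | hk'
    · refine absurd ?_ h3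
      rw [← hk, ← two_mul, zpow_mul, hd, (hy1 _).mul_zpow, zpow_two y, hy2, mul_one]
      exact zpow_mem (zpow_mem (zpow_mem (mem_zpowers u) _) _) _
    have h4 : d = c := by rw [← hk, (sq_eq_one_of_odd hG hk' (hk.symm ▸ h2)).2]
    exact meta_two hG hr hz' h1 h2 (fun a b => (ExtraTwo.mem_zpowers_iff_of_mul_self h2).1
      (h4 ▸ d4 (commutator_mem_commutator (mem_top a) (mem_top b)))) hna

/-- Blackburn's theorem -/
theorem exists_meta [Finite G] (hG : IsPGroup 2 G) (hr : SR 4 (⊤ : Subgroup G)) :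
    ∃ a b : G, (zpowers a).Normal ∧ zpowers a ⊔ zpowers b = ⊤ := meta_aux _ le_rfl hG hr

theorem isMetacyclic_of_gens {a b : G} (h : (zpowers a).Normal) (e : zpowers a ⊔ zpowers b = ⊤) :
    IsMetacyclic G := by
  refine ⟨zpowers a, h, inferInstance, QuotientGroup.mk' _ b, fun q => ?_⟩
  have := map_top_of_surjective _ (QuotientGroup.mk'_surjective (zpowers a))
  rw [← e, Subgroup.map_sup, (Subgroup.map_eq_bot_iff _).2 (QuotientGroup.ker_mk' _).ge, bot_sup_eq,
    MonoidHom.map_zpowers] at this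
  exact (this.ge (mem_top q) : q ∈ zpowers _)

end CfsgLib.Sect
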